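import Cfsg.Agent.Helper28.Grp3
import Cfsg.Agent.Helper28.TCL3
import Cfsg.Agent.Helper28.F23.Simple
import Cfsg.Agent.Helper28.F22.Simple
import Cfsg.Prelude.Def_Sporadic

/-!
# The 3-transpositions of the presented group Fi23 (helper28)

The conjugates of `t = (bcdefgh)^9` form a class of 31671 3-transpositions generating Fi23; the
centraliser of `t` is the point stabiliser of the action on 31671 points, it is perfect, and its
quotient by `⟨t⟩` is isomorphic to the presented group Fi22.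
-/

set_option autoImplicit false

namespace Cfsg.Agent.Helper28.F23

open Cfsg.Spor

/-! ### the base of the stabiliser chain -/

theorem fix_bot : Cfsg.Agent.Helper28.fixSub Cfsg.Agent.Helper28.C1689.cert.perm
    [Cfsg.Agent.Helper28.F23L.ov5 0, Cfsg.Agent.Helper28.F23L.ov4 0, Cfsg.Agent.Helper28.F23L.ov3 0,
      Cfsg.Agent.Helper28.F23L.ov2 0, 0] = ⊥ := by
  have := finite
  have hlb := Cfsg.Agent.Helper28.F23L.lb_chain
  have e1 : 31671 * 28160 * 21840 * 7776 * 27 = 4089470473293004800 := by norm_num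
  rw [e1, card_eq] at hlb
  apply Subgroup.eq_bot_of_card_le
  exact Nat.le_of_mul_le_mul_left (by rw [Nat.mul_one]; exact hlb) (by norm_num)

/-! ### the involution `t` -/

theorem gen_sq (x : Fi23.Gen) : (PresentedGroup.of x : Fi23) * PresentedGroup.of x = 1 :=
  cox_sq Fi23.edges Fi23.extra x (node x)

theorem t_sq : t * t = 1 := by
  obtain ⟨U, hU⟩ := conj_j
  have h := gen_sq Fi23.Gen.j
  rw [← hU] at h
  have h2 : U * (t * t) * U⁻¹ = 1 := by rw [← h]; group
  have h3 : t * t = U⁻¹ * (U * (t * t) * U⁻¹) * U := by group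
  rw [h3, h2]; group

theorem t_ne_one : t ≠ 1 := by
  intro h
  have h1 := normalClosure_t
  rw [h] at h1
  have h2 : Subgroup.normalClosure ({1} : Set Fi23) = ⊥ := by
    apply le_antisymm _ bot_le
    apply Subgroup.normalClosure_le_normal
    simp
  rw [h2] at h1
  have := nontrivial
  exact bot_ne_top h1

theorem orderOf_t : orderOf t = 2 :=
  orderOf_eq_prime (by rw [pow_two]; exact t_sq) t_ne_one

set_option maxRecDepth 100000 in
theorem t_wordOf : Cfsg.Agent.Helper28.WordOf Cfsg.Agent.Helper28.C1689.gen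
    ((Fi23.b * Fi23.c * Fi23.d * Fi23.e * Fi23.f * Fi23.g * Fi23.h) ^ 9)
    Cfsg.Agent.Helper28.F23L.t_w := by
  intro K _ v hv
  simp only [map_mul, map_pow, FreeGroup.lift_apply_of,
    List.map_cons, List.map_nil, List.prod_cons, List.prod_nil, Cfsg.Agent.Helper28.C1689.gen,
    Cfsg.Agent.Helper28.F23L.t_w, pow_succ, pow_zero, one_mul, mul_one, mul_assoc]

theorem t_word : t = PresentedGroup.mk (coxRelators Fi23.edges ∪ {r | r ∈ Fi23.extra})
    ((Fi23.b * Fi23.c * Fi23.d * Fi23.e * Fi23.f * Fi23.g * Fi23.h) ^ 9) :=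
  Cfsg.Agent.Helper28.C1689.cert.wordVal _ Cfsg.Agent.Helper28.F23L.t_w t_wordOf
    Cfsg.Agent.Helper28.F23L.t_w_let

/-! ### representatives of the double cosets of the point stabiliser -/

/-- a word leading to the orbit of 3510 points -/
def x1w : List ℕ := [7, 6, 5, 4, 3, 8, 2, 3, 4, 5, 6, 7]

/-- a word leading to the orbit of 28160 points -/
def x2w : List ℕ := [7]

/-- the value of a generator column -/
noncomputable abbrev gv (k : ℕ) : Fi23 :=
  Cfsg.Agent.Helper28.coxVal Fi23.edges Fi23.extra Cfsg.Agent.Helper28.C1689.gen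
    Cfsg.Agent.Helper28.C1689.D.jc k

/-- a representative of the double coset of the orbit of 3510 points -/
noncomputable def x1 : Fi23 := (x1w.map gv).prod

/-- a representative of the double coset of the orbit of 28160 points -/
noncomputable def x2 : Fi23 := (x2w.map gv).prod

theorem inv_of_word (l : List ℕ) (hl : ∀ a ∈ l, a < Cfsg.Agent.Helper28.C1689.D.jc) :
    (l.reverse.map gv).prod = ((l.map gv).prod)⁻¹ :=
  Cfsg.Agent.Helper28.prod_reverse_inv _ l
    (fun a ha => Cfsg.Agent.Helper28.C1689.cert.valInv a (le_of_lt (hl a ha)))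

theorem rel_x1 : (t * (x1 * t * x1⁻¹)) ^ 2 = 1 := by
  have h := Cfsg.Agent.Helper28.C1689.cert.word_eq_base _ fix_bot
    ((Cfsg.Agent.Helper28.F23L.t_w ++ (x1w ++ (Cfsg.Agent.Helper28.F23L.t_w ++ x1w.reverse))) ++
      (Cfsg.Agent.Helper28.F23L.t_w ++ (x1w ++ (Cfsg.Agent.Helper28.F23L.t_w ++ x1w.reverse)))) []
    (by decide +kernel) (by decide +kernel) (by decide +kernel)
  simp only [List.map_append, List.prod_append] at h
  rw [inv_of_word x1w (by decide +kernel), List.map_nil, List.prod_nil] at h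
  have h' : t * (x1 * (t * x1⁻¹)) * (t * (x1 * (t * x1⁻¹))) = 1 := h
  rw [pow_two, mul_assoc x1 t x1⁻¹]
  exact h'

theorem rel_x2 : (t * (x2 * t * x2⁻¹)) ^ 3 = 1 := by
  have h := Cfsg.Agent.Helper28.C1689.cert.word_eq_base _ fix_bot
    ((Cfsg.Agent.Helper28.F23L.t_w ++ (x2w ++ (Cfsg.Agent.Helper28.F23L.t_w ++ x2w.reverse))) ++
      ((Cfsg.Agent.Helper28.F23L.t_w ++ (x2w ++ (Cfsg.Agent.Helper28.F23L.t_w ++ x2w.reverse))) ++
        (Cfsg.Agent.Helper28.F23L.t_w ++ (x2w ++ (Cfsg.Agent.Helper28.F23L.t_w ++ x2w.reverse))))) []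
    (by decide +kernel) (by decide +kernel) (by decide +kernel)
  simp only [List.map_append, List.prod_append] at h
  rw [inv_of_word x2w (by decide +kernel), List.map_nil, List.prod_nil] at h
  have h' : t * (x2 * (t * x2⁻¹)) * (t * (x2 * (t * x2⁻¹)) * (t * (x2 * (t * x2⁻¹)))) = 1 := h
  rw [pow_succ, pow_two, mul_assoc x2 t x2⁻¹, mul_assoc]
  exact h'

theorem double_cosets (y : Fi23) :
    y ∈ H1 ∨ ∃ i : Fin 2, ∃ h ∈ H1, ∃ h' ∈ H1, y = h * ![x1, x2] i * h' := by
  obtain ⟨e, he, he1⟩ := Cfsg.Agent.Helper28.C1689.cert.exists_equiv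
  have o1 := (Cfsg.Agent.Helper28.C1689.cert.orbit_cert e he 3510 Cfsg.Agent.Helper28.C1689.ov1 Cfsg.Agent.Helper28.C1689.op1 Cfsg.Agent.Helper28.C1689.otp1 Cfsg.Agent.Helper28.C1689.otw1 (by decide) Cfsg.Agent.Helper28.C1689.orb1_all Cfsg.Agent.Helper28.C1689.ov1_lt).1
  have o2 := (Cfsg.Agent.Helper28.C1689.cert.orbit_cert e he 28160 Cfsg.Agent.Helper28.C1689.ov2 Cfsg.Agent.Helper28.C1689.op2 Cfsg.Agent.Helper28.C1689.otp2 Cfsg.Agent.Helper28.C1689.otw2 (by decide) Cfsg.Agent.Helper28.C1689.orb2_all Cfsg.Agent.Helper28.C1689.ov2_lt).1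
  have m1 := Cfsg.Agent.Helper28.C1689.cert.equiv_mk_word e he he1 x1w (by decide +kernel)
    (Cfsg.Agent.Helper28.C1689.ov1 0) Cfsg.Agent.Helper28.C1689.ov1_lt (by decide +kernel)
  have m2 := Cfsg.Agent.Helper28.C1689.cert.equiv_mk_word e he he1 x2w (by decide +kernel)
    (Cfsg.Agent.Helper28.C1689.ov2 0) Cfsg.Agent.Helper28.C1689.ov2_lt (by decide +kernel)
  have hidx : H1.index = 31671 := Cfsg.Agent.Helper28.C1689.cert.index_eq
  refine Cfsg.Agent.Helper28.double_coset_cover H1 ![x1, x2] ![3510, 28160] ?_ (by decide) (by decide)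
    ?_ y
  · intro i
    fin_cases i
    · show (MulAction.orbit H1 (QuotientGroup.mk x1 : Fi23 ⧸ H1)).ncard = 3510
      rw [show (QuotientGroup.mk x1 : Fi23 ⧸ H1) = _ from m1]
      exact o1
    · show (MulAction.orbit H1 (QuotientGroup.mk x2 : Fi23 ⧸ H1)).ncard = 28160
      rw [show (QuotientGroup.mk x2 : Fi23 ⧸ H1) = _ from m2]
      exact o2
  · rw [hidx, Fin.sum_univ_two]
    rfl

theorem three_transp : ∀ d ∈ conjugatesOf t, ∀ e ∈ conjugatesOf t,
    (d * e) ^ 2 = 1 ∨ (d * e) ^ 3 = 1 := by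
  apply Cfsg.Agent.Helper28.three_transp_of_reps H1 t t_central t_sq
  intro y
  rcases double_cosets y with h | ⟨i, h, hh, h', hh', hy⟩
  · exact Or.inl h
  · right
    fin_cases i
    · exact ⟨x1, Or.inl rel_x1, h, hh, h', hh', hy⟩
    · exact ⟨x2, Or.inr rel_x2, h, hh, h', hh', hy⟩

/-! ### the centraliser of `t` -/

theorem zpowers_t_card : Nat.card (Subgroup.zpowers t) = 2 := by
  rw [Nat.card_zpowers, orderOf_t]

theorem centralizer_t : Subgroup.centralizer ({t} : Set Fi23) = H1 := by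
  have hle : H1 ≤ Subgroup.centralizer ({t} : Set Fi23) := by
    intro h hh
    rw [Subgroup.mem_centralizer_iff]
    intro y hy
    rw [Set.mem_singleton_iff.mp hy]
    exact (t_central h hh).symm
  rcases maximal _ hle with h | h
  · exact h
  · exfalso
    have hc : ∀ g : Fi23, g * t = t * g := by
      intro g
      have hg : g ∈ Subgroup.centralizer ({t} : Set Fi23) := by rw [h]; trivial
      exact ((Subgroup.mem_centralizer_iff.mp hg) t rfl).symm
    have hN : (Subgroup.zpowers t).Normal := by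
      constructor
      intro x hx g
      obtain ⟨k, rfl⟩ := Subgroup.mem_zpowers_iff.mp hx
      have e : g * t * g⁻¹ = t := by rw [hc g, mul_inv_cancel_right]
      rw [← conj_zpow, e]
      exact Subgroup.zpow_mem_zpowers _ _
    have := simple
    rcases hN.eq_bot_or_eq_top with h1 | h1
    · exact t_ne_one (Subgroup.zpowers_eq_bot.mp h1)
    · have h2 := zpowers_t_card
      rw [h1, Subgroup.card_top, card_eq] at h2
      norm_num at h2

theorem class_card : Nat.card (conjugatesOf t) = 31671 := by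
  rw [Cfsg.Agent.Helper28.card_conjugatesOf, centralizer_t]
  exact Cfsg.Agent.Helper28.C1689.cert.index_eq

theorem class_closure : Subgroup.closure (conjugatesOf t) = ⊤ := by
  rw [← normalClosure_t]
  show Subgroup.closure (conjugatesOf t) = Subgroup.closure (Group.conjugatesOfSet {t})
  rw [Group.conjugatesOfSet, Set.biUnion_singleton]

theorem three_class : Cfsg.IsThreeTranspositionClass (conjugatesOf t) := by
  refine ⟨⟨?_, three_transp⟩, ⟨t, mem_conjugatesOf_self, rfl⟩, class_closure⟩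
  intro d hd
  obtain ⟨g, rfl⟩ := isConj_iff.mp (show IsConj t d from hd)
  apply orderOf_eq_prime
  · rw [conj_pow, pow_two, t_sq, mul_one, mul_inv_cancel]
  · intro h
    apply t_ne_one
    have e : t = g⁻¹ * (g * t * g⁻¹) * g := by group
    rw [e, h]; group

/-! ### the centraliser is perfect -/

theorem q1_node (x : Q1.Gen) : x ∈ coxNodes Q1.edges := by
  cases x <;> decide

theorem q1_ab_all (x : Q1.Gen) :
    Abelianization.of (PresentedGroup.of x : CoxPresented Q1.Gen Q1.edges Q1.extra) =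
      Abelianization.of (PresentedGroup.of Q1.Gen.a : CoxPresented Q1.Gen Q1.edges Q1.extra) := by
  have hb := cox_ab_edge Q1.edges Q1.extra Q1.Gen.a Q1.Gen.b (q1_node _) (q1_node _) (by decide)
  have hc := cox_ab_edge Q1.edges Q1.extra Q1.Gen.b Q1.Gen.c (q1_node _) (q1_node _) (by decide)
  have hd := cox_ab_edge Q1.edges Q1.extra Q1.Gen.c Q1.Gen.d (q1_node _) (q1_node _) (by decide)
  have he := cox_ab_edge Q1.edges Q1.extra Q1.Gen.d Q1.Gen.e (q1_node _) (q1_node _) (by decide)
  have hf := cox_ab_edge Q1.edges Q1.extra Q1.Gen.e Q1.Gen.f (q1_node _) (q1_node _) (by decide)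
  have hg := cox_ab_edge Q1.edges Q1.extra Q1.Gen.f Q1.Gen.g (q1_node _) (q1_node _) (by decide)
  have hh := cox_ab_edge Q1.edges Q1.extra Q1.Gen.d Q1.Gen.h (q1_node _) (q1_node _) (by decide)
  have hi := cox_ab_edge Q1.edges Q1.extra Q1.Gen.h Q1.Gen.i (q1_node _) (q1_node _) (by decide)
  cases x
  · rfl
  · rw [← hb]
  · rw [← hc, ← hb]
  · rw [← hd, ← hc, ← hb]
  · rw [← he, ← hd, ← hc, ← hb]
  · rw [← hf, ← he, ← hd, ← hc, ← hb]
  · rw [← hg, ← hf, ← he, ← hd, ← hc, ← hb]
  · rw [← hh, ← hd, ← hc, ← hb]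
  · rw [← hi, ← hh, ← hd, ← hc, ← hb]

theorem q1_ab_one (x : Q1.Gen) :
    Abelianization.of (PresentedGroup.of x : CoxPresented Q1.Gen Q1.edges Q1.extra) = 1 := by
  rw [q1_ab_all x]
  have h2 := cox_ab_sq Q1.edges Q1.extra Q1.Gen.a (q1_node _)
  have hrel : (PresentedGroup.mk (coxRelators Q1.edges ∪ {r | r ∈ Q1.extra})
      ((Q1.a * Q1.b * Q1.c * Q1.d * Q1.e * Q1.f * Q1.h) ^ 9) :
        CoxPresented Q1.Gen Q1.edges Q1.extra) = 1 :=
    PresentedGroup.one_of_mem (Or.inr (by simp [Q1.extra]))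
  have h63 := congrArg (Abelianization.of : CoxPresented Q1.Gen Q1.edges Q1.extra →*
    Abelianization (CoxPresented Q1.Gen Q1.edges Q1.extra)) hrel
  rw [map_pow, map_mul, map_mul, map_mul, map_mul, map_mul, map_mul, map_one] at h63
  have h63' : (Abelianization.of (PresentedGroup.of Q1.Gen.a : CoxPresented Q1.Gen Q1.edges Q1.extra) *
      Abelianization.of (PresentedGroup.of Q1.Gen.b : CoxPresented Q1.Gen Q1.edges Q1.extra) *
      Abelianization.of (PresentedGroup.of Q1.Gen.c : CoxPresented Q1.Gen Q1.edges Q1.extra) *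
      Abelianization.of (PresentedGroup.of Q1.Gen.d : CoxPresented Q1.Gen Q1.edges Q1.extra) *
      Abelianization.of (PresentedGroup.of Q1.Gen.e : CoxPresented Q1.Gen Q1.edges Q1.extra) *
      Abelianization.of (PresentedGroup.of Q1.Gen.f : CoxPresented Q1.Gen Q1.edges Q1.extra) *
      Abelianization.of (PresentedGroup.of Q1.Gen.h : CoxPresented Q1.Gen Q1.edges Q1.extra)) ^ 9 = 1 :=
    h63
  rw [q1_ab_all Q1.Gen.b, q1_ab_all Q1.Gen.c, q1_ab_all Q1.Gen.d, q1_ab_all Q1.Gen.e,
    q1_ab_all Q1.Gen.f, q1_ab_all Q1.Gen.h] at h63'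
  clear h63
  generalize Abelianization.of
    (PresentedGroup.of Q1.Gen.a : CoxPresented Q1.Gen Q1.edges Q1.extra) = v at *
  have h7 : v * v * v * v * v * v * v = v ^ 7 := by
    simp only [pow_succ, pow_zero, one_mul]
  rw [h7, ← pow_mul] at h63'
  exact eq_one_of_sq_of_pow_odd v h2 (7 * 9) (by decide) h63'

theorem q1_perfect : commutator (CoxPresented Q1.Gen Q1.edges Q1.extra) = ⊤ :=
  commutator_eq_top_of_gens _ q1_ab_one

/-- the centraliser of `t` -/
noncomputable abbrev Ct : Subgroup Fi23 := Subgroup.centralizer ({t} : Set Fi23)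

theorem f1_mem (q : CoxPresented Q1.Gen Q1.edges Q1.extra) : f1 q ∈ Ct := by
  show f1 q ∈ Subgroup.centralizer ({t} : Set Fi23)
  rw [centralizer_t]
  have h : f1 q ∈ f1.range := ⟨q, rfl⟩
  rw [range1] at h
  exact h

theorem ct_perfect : commutator Ct = ⊤ := by
  apply Cfsg.Agent.Helper28.commutator_top_of_surjective (f1.codRestrict Ct f1_mem) _ q1_perfect
  rintro ⟨c, hc⟩
  have hc' : c ∈ f1.range := by
    rw [range1]
    have hc2 : c ∈ Subgroup.centralizer ({t} : Set Fi23) := hc
    rw [centralizer_t] at hc2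
    exact hc2
  obtain ⟨q, rfl⟩ := hc'
  exact ⟨q, rfl⟩

/-! ### the quotient of the centraliser by `⟨t⟩` is Fi22 -/

/-- the inclusion of the generators of Fi22 -/
def inc22 : Fi22.Gen → Fi23.Gen
  | .a => .a
  | .b => .b
  | .c => .c
  | .d => .d
  | .e => .e
  | .f => .f
  | .g => .g
  | .h => .h
  | .i => .i

theorem gen_mem (x : Fi22.Gen) : (PresentedGroup.of (inc22 x) : Fi23) ∈ Ct := by
  show (PresentedGroup.of (inc22 x) : Fi23) ∈ Subgroup.centralizer ({t} : Set Fi23)
  rw [centralizer_t]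
  cases x
  · exact ⟨Fi23.a, Subgroup.subset_closure (by simp), rfl⟩
  · exact ⟨Fi23.b, Subgroup.subset_closure (by simp), rfl⟩
  · exact ⟨Fi23.c, Subgroup.subset_closure (by simp), rfl⟩
  · exact ⟨Fi23.d, Subgroup.subset_closure (by simp), rfl⟩
  · exact ⟨Fi23.e, Subgroup.subset_closure (by simp), rfl⟩
  · exact ⟨Fi23.f, Subgroup.subset_closure (by simp), rfl⟩
  · exact ⟨Fi23.g, Subgroup.subset_closure (by simp), rfl⟩
  · exact ⟨Fi23.h, Subgroup.subset_closure (by simp), rfl⟩
  · exact ⟨Fi23.i, Subgroup.subset_closure (by simp), rfl⟩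

/-- `t` as an element of its centraliser -/
noncomputable def tC : Ct := ⟨t, by
  rw [Subgroup.mem_centralizer_iff]
  intro y hy
  rw [Set.mem_singleton_iff.mp hy]⟩

theorem tC_central (c : Ct) : c * tC = tC * c :=
  Subtype.ext (Subgroup.mem_centralizer_iff.mp c.2 t rfl).symm

theorem tC_sq : tC * tC = 1 := Subtype.ext t_sq

theorem tC_coe : (tC : Fi23) = t := rfl

theorem tC_ne_one : tC ≠ 1 := by
  intro h
  apply t_ne_one
  rw [← tC_coe, h]
  rfl

theorem orderOf_tC : orderOf tC = 2 :=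
  orderOf_eq_prime (by rw [pow_two]; exact tC_sq) tC_ne_one

/-- the generators of Fi22 in the centraliser of `t` -/
noncomputable def psi : FreeGroup Fi22.Gen →* Ct :=
  FreeGroup.lift (fun x => (⟨PresentedGroup.of (inc22 x), gen_mem x⟩ : Ct))

theorem psi_coe (r : FreeGroup Fi22.Gen) :
    ((psi r : Ct) : Fi23) =
      PresentedGroup.mk (coxRelators Fi23.edges ∪ {r | r ∈ Fi23.extra}) (FreeGroup.map inc22 r) := by
  have h : Ct.subtype.comp psi =
      (PresentedGroup.mk (coxRelators Fi23.edges ∪ {r | r ∈ Fi23.extra})).comp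
        (FreeGroup.map inc22) := by
    apply FreeGroup.ext_hom
    intro x
    simp only [MonoidHom.comp_apply, psi, FreeGroup.lift_apply_of, FreeGroup.map.of]
    rfl
  exact DFunLike.congr_fun h r

theorem psi_surj : Function.Surjective psi := by
  rintro ⟨c, hc⟩
  have hc' : c ∈ H1 := by
    have hc2 : c ∈ Subgroup.centralizer ({t} : Set Fi23) := hc
    rw [centralizer_t] at hc2
    exact hc2
  obtain ⟨w, hw, rfl⟩ := hc'
  have hw' : w ∈ (FreeGroup.map inc22).range := by
    refine (Subgroup.closure_le _).mpr ?_ hw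
    intro s hs
    simp only [Set.mem_insert_iff, Set.mem_singleton_iff] at hs
    rcases hs with rfl | rfl | rfl | rfl | rfl | rfl | rfl | rfl | rfl
    · exact ⟨FreeGroup.of Fi22.Gen.a, by rw [FreeGroup.map.of]; rfl⟩
    · exact ⟨FreeGroup.of Fi22.Gen.b, by rw [FreeGroup.map.of]; rfl⟩
    · exact ⟨FreeGroup.of Fi22.Gen.c, by rw [FreeGroup.map.of]; rfl⟩
    · exact ⟨FreeGroup.of Fi22.Gen.d, by rw [FreeGroup.map.of]; rfl⟩
    · exact ⟨FreeGroup.of Fi22.Gen.e, by rw [FreeGroup.map.of]; rfl⟩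
    · exact ⟨FreeGroup.of Fi22.Gen.f, by rw [FreeGroup.map.of]; rfl⟩
    · exact ⟨FreeGroup.of Fi22.Gen.g, by rw [FreeGroup.map.of]; rfl⟩
    · exact ⟨FreeGroup.of Fi22.Gen.h, by rw [FreeGroup.map.of]; rfl⟩
    · exact ⟨FreeGroup.of Fi22.Gen.i, by rw [FreeGroup.map.of]; rfl⟩
  obtain ⟨w', rfl⟩ := hw'
  exact ⟨w', Subtype.ext (psi_coe w')⟩

theorem psi_rel : ∀ r ∈ coxRelators Fi22.edges ∪ {r | r ∈ Fi22.extra},
    psi r ∈ Subgroup.zpowers tC := by
  intro r hr
  rcases hr with ⟨x, _, y, _, rfl⟩ | hr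
  · have e : coxLabel Fi22.edges x y = coxLabel Fi23.edges (inc22 x) (inc22 y) := by
      cases x <;> cases y <;> decide
    have h1 : psi ((FreeGroup.of x * FreeGroup.of y) ^ coxLabel Fi22.edges x y) = 1 := by
      apply Subtype.ext
      rw [psi_coe, map_pow, map_mul, FreeGroup.map.of, FreeGroup.map.of, e, map_pow, map_mul]
      exact cox_pair Fi23.edges Fi23.extra _ _ (node _) (node _)
    rw [h1]
    exact Subgroup.one_mem _
  · have hr' : r ∈ Fi22.extra := hr
    simp only [Fi22.extra, List.mem_cons, List.not_mem_nil, or_false] at hr'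
    rcases hr' with rfl | rfl | rfl
    · have h1 : psi ((Fi22.d * Fi22.c * Fi22.b * Fi22.d * Fi22.e * Fi22.f * Fi22.d * Fi22.h *
          Fi22.i) ^ 10) = 1 := by
        apply Subtype.ext
        rw [psi_coe]
        have e : FreeGroup.map inc22 ((Fi22.d * Fi22.c * Fi22.b * Fi22.d * Fi22.e * Fi22.f * Fi22.d *
            Fi22.h * Fi22.i) ^ 10) = (Fi23.d * Fi23.c * Fi23.b * Fi23.d * Fi23.e * Fi23.f * Fi23.d *
            Fi23.h * Fi23.i) ^ 10 := by
          simp only [map_pow, map_mul, FreeGroup.map.of, inc22]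
        rw [e]
        exact PresentedGroup.one_of_mem (Or.inr (by simp [Fi23.extra]))
      rw [h1]
      exact Subgroup.one_mem _
    · have h1 : psi ((Fi22.a * Fi22.b * Fi22.c * Fi22.d * Fi22.e * Fi22.f * Fi22.h) ^ 9) = 1 := by
        apply Subtype.ext
        rw [psi_coe]
        have e : FreeGroup.map inc22 ((Fi22.a * Fi22.b * Fi22.c * Fi22.d * Fi22.e * Fi22.f *
            Fi22.h) ^ 9) = (Fi23.a * Fi23.b * Fi23.c * Fi23.d * Fi23.e * Fi23.f * Fi23.h) ^ 9 := by
          simp only [map_pow, map_mul, FreeGroup.map.of, inc22]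
        rw [e]
        exact PresentedGroup.one_of_mem (Or.inr (by simp [Fi23.extra]))
      rw [h1]
      exact Subgroup.one_mem _
    · have h1 : psi ((Fi22.b * Fi22.c * Fi22.d * Fi22.e * Fi22.f * Fi22.g * Fi22.h) ^ 9) = tC := by
        apply Subtype.ext
        rw [psi_coe]
        have e : FreeGroup.map inc22 ((Fi22.b * Fi22.c * Fi22.d * Fi22.e * Fi22.f * Fi22.g *
            Fi22.h) ^ 9) = (Fi23.b * Fi23.c * Fi23.d * Fi23.e * Fi23.f * Fi23.g * Fi23.h) ^ 9 := by
          simp only [map_pow, map_mul, FreeGroup.map.of, inc22]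
        rw [e]
        exact t_word.symm
      rw [h1]
      exact Subgroup.mem_zpowers _

theorem ct_index : Ct.index = 31671 := by
  show (Subgroup.centralizer ({t} : Set Fi23)).index = 31671
  rw [centralizer_t]
  exact Cfsg.Agent.Helper28.C1689.cert.index_eq

theorem exists_pi : ∃ π : Ct →* Fi22, Function.Surjective π ∧ π.ker = Subgroup.zpowers tC := by
  have hZ : (Subgroup.zpowers tC).Normal := by
    constructor
    intro x hx g
    obtain ⟨k, rfl⟩ := Subgroup.mem_zpowers_iff.mp hx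
    have e : g * tC * g⁻¹ = tC := by rw [tC_central g, mul_inv_cancel_right]
    rw [← conj_zpow, e]
    exact Subgroup.zpow_mem_zpowers _ _
  let fgen : Fi22.Gen → Ct ⧸ Subgroup.zpowers tC := fun x => QuotientGroup.mk (psi (FreeGroup.of x))
  have hlift : FreeGroup.lift fgen = (QuotientGroup.mk' (Subgroup.zpowers tC)).comp psi := by
    apply FreeGroup.ext_hom
    intro x
    rw [FreeGroup.lift_apply_of]
    rfl
  have hrel : ∀ r ∈ coxRelators Fi22.edges ∪ {r | r ∈ Fi22.extra}, FreeGroup.lift fgen r = 1 := by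
    intro r hr
    rw [hlift, MonoidHom.comp_apply, QuotientGroup.mk'_apply, QuotientGroup.eq_one_iff]
    exact psi_rel r hr
  let θ : Fi22 →* Ct ⧸ Subgroup.zpowers tC := PresentedGroup.toGroup hrel
  have hθ : ∀ w : FreeGroup Fi22.Gen,
      θ (PresentedGroup.mk (coxRelators Fi22.edges ∪ {r | r ∈ Fi22.extra}) w) =
        QuotientGroup.mk (psi w) := by
    intro w
    show FreeGroup.lift fgen w = _
    rw [hlift]
    rfl
  have hsurj : Function.Surjective θ := by
    intro q
    obtain ⟨c, rfl⟩ := QuotientGroup.mk_surjective q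
    obtain ⟨w, rfl⟩ := psi_surj c
    exact ⟨PresentedGroup.mk _ w, hθ w⟩
  have hinj : Function.Injective θ := by
    rw [← MonoidHom.ker_eq_bot_iff]
    have := Cfsg.Agent.Helper28.F22.simple
    rcases (MonoidHom.normal_ker θ).eq_bot_or_eq_top with h | h
    · exact h
    · exfalso
      have hall : ∀ c : Ct, c ∈ Subgroup.zpowers tC := by
        intro c
        obtain ⟨w, rfl⟩ := psi_surj c
        have h1 : θ (PresentedGroup.mk (coxRelators Fi22.edges ∪ {r | r ∈ Fi22.extra}) w) = 1 := by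
          rw [← MonoidHom.mem_ker, h]
          trivial
        rw [hθ w] at h1
        exact (QuotientGroup.eq_one_iff _).mp h1
      have htop : Subgroup.zpowers tC = ⊤ := eq_top_iff.mpr (fun c _ => hall c)
      have hcard : Nat.card (Subgroup.zpowers tC) = 2 := by
        rw [Nat.card_zpowers]
        exact orderOf_tC
      rw [htop, Subgroup.card_top] at hcard
      have h5 := Ct.card_mul_index
      rw [hcard, card_eq, ct_index] at h5
      norm_num at h5
  let Θ : Fi22 ≃* Ct ⧸ Subgroup.zpowers tC := MulEquiv.ofBijective θ ⟨hinj, hsurj⟩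
  refine ⟨Θ.symm.toMonoidHom.comp (QuotientGroup.mk' (Subgroup.zpowers tC)), ?_, ?_⟩
  · exact Θ.symm.surjective.comp (QuotientGroup.mk'_surjective _)
  · ext c
    rw [MonoidHom.mem_ker, MonoidHom.comp_apply]
    constructor
    · intro h
      have h1 : QuotientGroup.mk' (Subgroup.zpowers tC) c = 1 := by
        have h2 := congrArg Θ h
        rw [map_one] at h2
        rw [← h2]
        exact (Θ.apply_symm_apply _).symm
      exact (QuotientGroup.eq_one_iff _).mp h1
    · intro h
      have h1 : QuotientGroup.mk' (Subgroup.zpowers tC) c = 1 := (QuotientGroup.eq_one_iff _).mpr h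
      rw [h1]
      exact map_one _

/-! ### the centralisers of the 3-transpositions -/

attribute [local irreducible] t in
theorem cover : ∀ d ∈ conjugatesOf t, ∃ (K : Type) (_ : Group K), Cfsg.IsFi22 K ∧
    Cfsg.IsNonsplitDoubleCover (Subgroup.centralizer ({d} : Set Fi23)) K := by
  intro d hd
  obtain ⟨g, rfl⟩ := isConj_iff.mp (show IsConj t d from hd)
  obtain ⟨π, hπ, hker⟩ := exists_pi
  refine ⟨Fi22, inferInstance, ⟨Cfsg.Agent.Helper28.F22.simple, Cfsg.Agent.Helper28.F22.card_eq⟩, ?_⟩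
  have := Cfsg.Agent.Helper28.F22.simple
  have hε : ∀ c : Subgroup.centralizer ({g * t * g⁻¹} : Set Fi23),
      (Cfsg.Agent.Helper28.centralizerConj g t).symm
        ((Cfsg.Agent.Helper28.centralizerConj g t) c) = c :=
    (Cfsg.Agent.Helper28.centralizerConj g t).symm_apply_apply
  have hsq : (Cfsg.Agent.Helper28.centralizerConj g t).symm tC *
      (Cfsg.Agent.Helper28.centralizerConj g t).symm tC = 1 := by
    rw [← MulEquiv.map_mul, tC_sq, MulEquiv.map_one]
  have hne : (Cfsg.Agent.Helper28.centralizerConj g t).symm tC ≠ 1 := by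
    intro h
    exact tC_ne_one ((MulEquiv.map_eq_one_iff _).mp h)
  have hcen : ∀ c : Subgroup.centralizer ({g * t * g⁻¹} : Set Fi23),
      c * (Cfsg.Agent.Helper28.centralizerConj g t).symm tC =
        (Cfsg.Agent.Helper28.centralizerConj g t).symm tC * c := by
    intro c
    apply (Cfsg.Agent.Helper28.centralizerConj g t).injective
    rw [MulEquiv.map_mul, MulEquiv.map_mul, MulEquiv.apply_symm_apply]
    exact tC_central _
  have hperf : commutator (Subgroup.centralizer ({g * t * g⁻¹} : Set Fi23)) = ⊤ :=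
    Cfsg.Agent.Helper28.commutator_top_of_surjective
      (Cfsg.Agent.Helper28.centralizerConj g t).symm.toMonoidHom
      (Cfsg.Agent.Helper28.centralizerConj g t).symm.surjective ct_perfect
  have hk : (π.comp (Cfsg.Agent.Helper28.centralizerConj g t).toMonoidHom).ker =
      Subgroup.zpowers ((Cfsg.Agent.Helper28.centralizerConj g t).symm tC) := by
    ext c
    rw [MonoidHom.mem_ker, MonoidHom.comp_apply, ← MonoidHom.mem_ker, hker]
    constructor
    · intro h
      obtain ⟨k, hk⟩ := Subgroup.mem_zpowers_iff.mp h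
      rw [Subgroup.mem_zpowers_iff]
      refine ⟨k, ?_⟩
      exact (map_zpow (Cfsg.Agent.Helper28.centralizerConj g t).symm tC k).symm.trans
        (by rw [hk]; exact hε c)
    · intro h
      obtain ⟨k, hk⟩ := Subgroup.mem_zpowers_iff.mp h
      rw [Subgroup.mem_zpowers_iff]
      refine ⟨k, ?_⟩
      rw [← hk]
      exact ((map_zpow (Cfsg.Agent.Helper28.centralizerConj g t).symm tC k).symm ▸
        ((Cfsg.Agent.Helper28.centralizerConj g t).apply_symm_apply (tC ^ k)).symm)
  exact Cfsg.Agent.Helper28.nsdc_of_hom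
    (Cfsg.Agent.Helper28.center_eq_bot_of_simple_perfect Cfsg.Agent.Helper28.F22.perfect)
    hperf ((Cfsg.Agent.Helper28.centralizerConj g t).symm tC) hsq hne hcen
    (π.comp (Cfsg.Agent.Helper28.centralizerConj g t).toMonoidHom)
    (hπ.comp (Cfsg.Agent.Helper28.centralizerConj g t).surjective) hk

/-! ### the point stabiliser is a non-split double cover of Fi22 -/

attribute [local irreducible] t in
theorem ct_cover : Cfsg.IsNonsplitDoubleCover Ct Fi22 := by
  obtain ⟨π, hπ, hker⟩ := exists_pi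
  have := Cfsg.Agent.Helper28.F22.simple
  exact Cfsg.Agent.Helper28.nsdc_of_hom
    (Cfsg.Agent.Helper28.center_eq_bot_of_simple_perfect Cfsg.Agent.Helper28.F22.perfect)
    ct_perfect tC tC_sq tC_ne_one tC_central π hπ hker

attribute [local irreducible] t in
theorem h1_cover : Cfsg.IsNonsplitDoubleCover H1 Fi22 := by
  have h := ct_cover
  have e : Ct = H1 := centralizer_t
  rw [e] at h
  exact h

end Cfsg.Agent.Helper28.F23
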